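import Mathlib
import Cfsg.Agent.H384.TwoTrans

/-!
# S3691, alternating socle: concrete interface

* `PEx G H B` : `Alt(Ω) ≤ G ≤ Sym(Ω)`, `G = H B` exact, `H` maximal in `G`, degree at least 30
* `Pre G H B Γ k` : Case II, `B` stabilises the `k`-set `Γ`, `H` is `k`-homogeneous
* `Two G H B Γ k` : Case II, `k ≤ 3`: moreover `B` contains all even permutations fixing `Γ` pointwise, and no nontrivial even
  permutation of `H` fixes `k` points
-/

set_option autoImplicit false

namespace Cfsg.Agent.H454.Reg.Alt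

open Equiv MulAction

universe u

variable {Ω : Type u} [Fintype Ω] [DecidableEq Ω]

/-- the concrete situation for an alternating socle -/
structure PEx (G H B : Subgroup (Perm Ω)) : Prop where
  alt : alternatingGroup Ω ≤ G
  hG : H ≤ G
  bG : B ≤ G
  ne : H ≠ G
  max : ∀ M : Subgroup (Perm Ω), H ≤ M → M ≤ G → M = H ∨ M = G
  not_alt : ¬ alternatingGroup Ω ≤ H
  not_altB : ¬ alternatingGroup Ω ≤ B
  inf : H ⊓ B = ⊥
  card : Nat.card H * Nat.card B = Nat.card G
  large : 3 * Nat.factorial 29 < Nat.card B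
  nat : Nat.card B ≠ Fintype.card Ω
  deg : 30 ≤ Fintype.card Ω

/-- Case II, first part: `B` stabilises the `k`-set `Γ`, so `H` is `k`-homogeneous -/
structure Pre (G H B : Subgroup (Perm Ω)) (Γ : Finset Ω) (k : ℕ) : Prop extends PEx G H B where
  cardΓ : Γ.card = k
  pos : 1 ≤ k
  lt : 2 * k < Fintype.card Ω
  stab : ∀ b ∈ B, ∀ x ∈ Γ, b x ∈ Γ
  hom : IsPretransitive H (Set.powersetCard Ω k)

/-- Case II (`k ≤ 3`): `B` stabilises the `k`-set `Γ` and contains all even permutations which fix `Γ` pointwise -/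
structure Two (G H B : Subgroup (Perm Ω)) (Γ : Finset Ω) (k : ℕ) : Prop extends Pre G H B Γ k where
  alt_le : ∀ g ∈ alternatingGroup Ω, (∀ x ∈ Γ, g x = x) → g ∈ B
  triv : ∀ h ∈ H, h ∈ alternatingGroup Ω → ∀ s : Finset Ω, s.card = k → (∀ x ∈ s, h x = x) → h = 1

/-- (T1) the 2-transitive list in Case II, `k = 3` -/
def StThree : Prop :=
  ∀ {Ω : Type u} [Fintype Ω] [DecidableEq Ω] (H : Subgroup (Perm Ω)) (T : Subgroup H), 30 ≤ Fintype.card Ω →
    H384.TwoTrans.AS H Ω T → H384.TwoTrans.Known2 T (Nat.card Ω) → ¬ alternatingGroup Ω ≤ H →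
    IsPretransitive H (Set.powersetCard Ω 3) →
    (∀ h ∈ H, h ∈ alternatingGroup Ω → ∀ s : Finset Ω, s.card = 3 → (∀ x ∈ s, h x = x) → h = 1) →
    ∃ (F : Type) (_ : Field F) (_ : Fintype F), Fintype.card Ω = Fintype.card F + 1 ∧
      Nonempty (T ≃* Matrix.ProjectiveSpecialLinearGroup (Fin 2) F)

/-- (T2) a transitive group `N ≅ PSL₂(q)` of degree `q + 1`: the action is the action on the projective line, and the
semilinear maps of the projective line normalise it -/
def StLine : Prop :=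
  ∀ {Ω : Type u} [Fintype Ω] [DecidableEq Ω] (N : Subgroup (Perm Ω)) (F : Type) [Field F] [Fintype F],
    30 ≤ Fintype.card Ω → Fintype.card Ω = Fintype.card F + 1 → IsPretransitive N Ω →
    Nonempty (N ≃* Matrix.ProjectiveSpecialLinearGroup (Fin 2) F) →
    ∃ e : Ω ≃ Option F,
      -- `σ ∈ Aut F` acting on `F ∪ {∞}`
      (∀ σ : F ≃+* F, ∀ g : Perm Ω, (∀ x : Ω, e (g x) = (e x).map σ) → g ∈ Subgroup.normalizer (N : Set (Perm Ω))) ∧
      -- `x ↦ a x + b`
      (∀ a b : F, a ≠ 0 → ∀ g : Perm Ω, (∀ x : Ω, e (g x) = (e x).map (fun y => a * y + b)) →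
        g ∈ Subgroup.normalizer (N : Set (Perm Ω)))

/-- (T3) `k ≥ 4` is impossible -/
def StFour : Prop :=
  ∀ {Ω : Type u} [Fintype Ω] [DecidableEq Ω] (G H B : Subgroup (Perm Ω)) (Γ : Finset Ω) (k : ℕ), 4 ≤ k →
    Pre G H B Γ k → False

end Cfsg.Agent.H454.Reg.Alt
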